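import Cfsg.Agent.H410.EB.Section
import Cfsg.Agent.Blocks.PrincipalSection
import Cfsg.Agent.S0145
import Cfsg.Agent.S0942
import Cfsg.Agent.H684.EB.EvenS

/-!
# TEAM EB: criterion (P1B)

* `vanish`: Brauer's second main theorem for a centralizer with one block;
* `section_mem`: the constituents of the `r`-section of `y` (`r ∥ |S|`) are in the principal 2-block if a 2-element
  of `C(y)` has a centralizer with only one 2-block;
* `evenB_of_p1`.
-/

set_option autoImplicit false
set_option linter.unusedSectionVars false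

namespace Cfsg.Agent.H410.EB

open Cfsg Cfsg.Agent.Characters Cfsg.Agent.H694
open scoped ComplexConjugate
open Cfsg.Agent.Characters.Core
open Cfsg.Agent.Blocks.Local Cfsg.Agent.Blocks.Basic
open Cfsg.Agent.H610.EB Cfsg.Agent.H612.SectionR Cfsg.Agent.H684.EB
open Cfsg.Agent.Blocks.PrincipalSection

universe u

section general

variable {S : Type u} [Group S] [Fintype S]

theorem sum_norm_sq' [Fintype (IrrCharacter S)] (x : S) :
    (∑ χ : IrrCharacter S, ‖(χ : S → ℂ) x‖ ^ 2 : ℝ) = Nat.card (Subgroup.centralizer ({x} : Set S)) := by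
  have h := (Cfsg.Agent.S0145.result x x).1 (IsConj.refl x)
  rw [finsum_eq_sum_of_fintype] at h
  have h2 : ((∑ χ : IrrCharacter S, ‖(χ : S → ℂ) x‖ ^ 2 : ℝ) : ℂ) =
      ((Nat.card (Subgroup.centralizer ({x} : Set S)) : ℝ) : ℂ) := by
    push_cast
    rw [← h]
    refine Finset.sum_congr rfl fun χ _ => ?_
    rw [Complex.mul_conj']
  exact_mod_cast h2

theorem commute_left_of_mul {g x s : S} (h : Commute g (x * s)) (hxs : Commute x s)
    (hco : Nat.Coprime (orderOf x) (orderOf s)) : Commute g x := by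
  obtain ⟨m, hm1, hm0⟩ := Nat.chineseRemainder hco 1 0
  have h1 : (x * s) ^ m = x := by
    rw [hxs.mul_pow]
    have e1 : x ^ m = x := by
      nth_rewrite 2 [← pow_one x]
      rw [pow_eq_pow_iff_modEq]
      exact hm1
    have e2 : s ^ m = 1 := orderOf_dvd_iff_pow_eq_one.1 ((Nat.modEq_zero_iff_dvd).1 hm0)
    rw [e1, e2, mul_one]
  rw [← h1]
  exact h.pow_right m

/-- Brauer's second main theorem for a centralizer with one block -/
theorem vanish {p : ℕ} [Fact p.Prime] {M : Ideal AlgInt} (hM : IsPModular p M) (χ : IrrCharacter S)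
    (hχ : χ ∉ principalBlock M S) (x : S) (hx : ∃ j : ℕ, orderOf x = p ^ j)
    (hC : ∀ ξ : IrrCharacter (Subgroup.centralizer ({x} : Set S)),
      ξ ∈ principalBlock M (Subgroup.centralizer ({x} : Set S)))
    (s : S) (hs : ¬ p ∣ orderOf s) (hxs : Commute x s) : (χ : S → ℂ) (x * s) = 0 := by
  classical
  have : Finite (IrrCharacter S) := finite_irr
  have := Fintype.ofFinite (IrrCharacter S)
  set H := Subgroup.centralizer ({x} : Set S) with hH
  have : Finite (IrrCharacter H) := finite_irr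
  have := Fintype.ofFinite (IrrCharacter H)
  have hsH : s ∈ H := Subgroup.mem_centralizer_singleton_iff.2 hxs.symm
  have hy : ¬ p ∣ orderOf (⟨s, hsH⟩ : H) := by rwa [Subgroup.orderOf_mk]
  have h1 := sum_principalBlock_section hM x hx hH ⟨s, hsH⟩ ⟨s, hsH⟩ hy hy
  rw [← finsum_norm_sq (principalBlock M H), ← finsum_norm_sq (principalBlock M S) (x * s)] at h1
  have h2 : (∑ᶠ ζ ∈ principalBlock M S, ‖(ζ : S → ℂ) (x * s)‖ ^ 2 : ℝ) =
      ∑ᶠ ξ ∈ principalBlock M H, ‖(ξ : H → ℂ) ⟨s, hsH⟩‖ ^ 2 := by exact_mod_cast h1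
  have h3 : (∑ᶠ ξ ∈ principalBlock M H, ‖(ξ : H → ℂ) ⟨s, hsH⟩‖ ^ 2 : ℝ) =
      Nat.card (Subgroup.centralizer ({⟨s, hsH⟩} : Set H)) := by
    rw [← sum_norm_sq', finsum_mem_eq_toFinset_sum]
    refine Finset.sum_congr ?_ fun _ _ => rfl
    ext ξ
    simp [hC ξ]
  have h4 : Nat.card (Subgroup.centralizer ({x * s} : Set S)) ≤
      Nat.card (Subgroup.centralizer ({⟨s, hsH⟩} : Set H)) := by
    have hco : Nat.Coprime (orderOf x) (orderOf s) := by
      obtain ⟨j, hj⟩ := hx
      rw [hj]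
      exact Nat.Coprime.pow_left j ((Nat.Prime.coprime_iff_not_dvd Fact.out).2 hs)
    have key : ∀ g ∈ Subgroup.centralizer ({x * s} : Set S), Commute g x ∧ Commute g s := by
      intro g hg
      have hg' : Commute g (x * s) := Subgroup.mem_centralizer_singleton_iff.1 hg
      refine ⟨commute_left_of_mul hg' hxs hco, commute_left_of_mul (x := s) (s := x) ?_ hxs.symm hco.symm⟩
      rwa [← hxs.eq]
    refine Nat.card_le_card_of_injective
      (fun g : Subgroup.centralizer ({x * s} : Set S) =>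
        (⟨⟨g, Subgroup.mem_centralizer_singleton_iff.2 (key g g.2).1⟩,
          Subgroup.mem_centralizer_singleton_iff.2 (Subtype.ext (key g g.2).2)⟩ :
          Subgroup.centralizer ({⟨s, hsH⟩} : Set H))) ?_
    intro g g' h
    exact Subtype.ext (congrArg (fun t => ((t : H) : S)) (congrArg Subtype.val h))
  have h5 := sum_norm_sq' (x * s)
  rw [finsum_mem_eq_toFinset_sum] at h2
  have h6 : ‖(χ : S → ℂ) (x * s)‖ ^ 2 + ∑ ζ ∈ (principalBlock M S).toFinset, ‖(ζ : S → ℂ) (x * s)‖ ^ 2 ≤
      ∑ χ : IrrCharacter S, ‖(χ : S → ℂ) (x * s)‖ ^ 2 := by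
    rw [← Finset.sum_insert (f := fun ζ : IrrCharacter S => ‖(ζ : S → ℂ) (x * s)‖ ^ 2) (by
      rw [Set.mem_toFinset]
      exact hχ)]
    exact Finset.sum_le_univ_sum_of_nonneg fun _ => by positivity
  rw [h2, h3, h5] at h6
  have h7 : (Nat.card (Subgroup.centralizer ({x * s} : Set S)) : ℝ) ≤
      Nat.card (Subgroup.centralizer ({⟨s, hsH⟩} : Set H)) := by exact_mod_cast h4
  have h8 : ‖(χ : S → ℂ) (x * s)‖ ^ 2 ≤ 0 := by linarith
  have h9 : ‖(χ : S → ℂ) (x * s)‖ = 0 := by
    have := sq_nonneg ‖(χ : S → ℂ) (x * s)‖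
    exact pow_eq_zero_iff two_ne_zero |>.1 (le_antisymm h8 this)
  exact norm_eq_zero.1 h9

/-- an exponent for the `r`-part -/
theorem exists_rexp (S : Type*) [Group S] [Finite S] {r : ℕ} (hr : r.Prime) :
    ∃ d b : ℕ, (∀ g : S, (∃ i : ℕ, g ^ r ^ i = 1) → g ^ d = g) ∧ (∀ g : S, ¬ r ∣ orderOf g → g ^ d = 1) ∧
      (∀ g : S, (g ^ d) ^ r ^ b = 1) ∧ ∀ g : S, ¬ r ∣ orderOf (g * (g ^ d)⁻¹) := by
  have : Fact r.Prime := ⟨hr⟩
  obtain ⟨b, n, hn, hG⟩ := Nat.exists_eq_pow_mul_and_not_dvd (n := Nat.card S)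
    Nat.card_pos.ne' r hr.ne_one
  have hcop : Nat.Coprime (r ^ b) n := Nat.Coprime.pow_left b ((Nat.Prime.coprime_iff_not_dvd hr).2 hn)
  obtain ⟨d, hd1, hd0⟩ := Nat.chineseRemainder hcop 1 0
  have hdv : ∀ g : S, orderOf g ∣ r ^ b * n := fun g => hG ▸ orderOf_dvd_natCard g
  refine ⟨d, b, ?_, ?_, ?_, ?_⟩
  · rintro g ⟨i, hi⟩
    have h1 : orderOf g ∣ r ^ b := by
      have h2 : Nat.Coprime (orderOf g) n :=
        Nat.Coprime.coprime_dvd_left (orderOf_dvd_of_pow_eq_one hi)
          (Nat.Coprime.pow_left i ((Nat.Prime.coprime_iff_not_dvd hr).2 hn))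
      exact h2.dvd_of_dvd_mul_right (hdv g)
    nth_rewrite 2 [← pow_one g]
    rw [pow_eq_pow_iff_modEq]
    exact hd1.of_dvd h1
  · intro g hg
    have h1 : orderOf g ∣ n := by
      have h2 : Nat.Coprime (orderOf g) (r ^ b) :=
        (Nat.Coprime.pow_left b ((Nat.Prime.coprime_iff_not_dvd hr).2 hg)).symm
      exact h2.dvd_of_dvd_mul_left (hdv g)
    exact orderOf_dvd_iff_pow_eq_one.1 (h1.trans ((Nat.modEq_zero_iff_dvd).1 hd0))
  · intro g
    rw [← pow_mul, ← orderOf_dvd_iff_pow_eq_one]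
    refine (hdv g).trans ?_
    rw [mul_comm d]
    exact mul_dvd_mul dvd_rfl ((Nat.modEq_zero_iff_dvd).1 hd0)
  · intro g
    have hc : Commute g (g ^ d)⁻¹ := (Commute.self_pow g d).inv_right
    have h1 : (g * (g ^ d)⁻¹) ^ n = 1 := by
      rw [hc.mul_pow, inv_pow, mul_inv_eq_one, ← pow_mul, pow_eq_pow_iff_modEq]
      have h5 : 1 * n ≡ d * n [MOD r ^ b * n] := (hd1.symm).mul_right' n
      rw [one_mul] at h5
      exact h5.of_dvd (hdv g)
    exact fun h2 => hn (h2.trans (orderOf_dvd_of_pow_eq_one h1))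

/-- the centralizer of an element generating a Sylow subgroup of prime order has a normal complement -/
theorem index_core {r : ℕ} [Fact r.Prime] (hr1 : ¬ r ^ 2 ∣ Nat.card S) (y : S) (hy : orderOf y = r) :
    (pPrimeCore r (Subgroup.centralizer ({y} : Set S))).index = r := by
  have hr : r.Prime := Fact.out
  set C := Subgroup.centralizer ({y} : Set S) with hC
  have hyC : y ∈ C := Subgroup.mem_centralizer_singleton_iff.2 rfl
  have hy' : orderOf (⟨y, hyC⟩ : C) = r := by rw [Subgroup.orderOf_mk, hy]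
  have hcen : ∀ g : C, Commute g ⟨y, hyC⟩ := fun g => Subtype.ext (Subgroup.mem_centralizer_singleton_iff.1 g.2)
  let Z : Subgroup C := Subgroup.zpowers ⟨y, hyC⟩
  have hZ : ∀ z ∈ Z, ∀ g : C, Commute g z := by
    rintro z ⟨i, rfl⟩ g
    exact (hcen g).zpow_right i
  have hZn : Z.Normal := ⟨fun z hz g => by
    rw [(hZ z hz g).eq, mul_inv_cancel_right]
    exact hz⟩
  have hcard : Nat.card Z = r := by rw [Nat.card_zpowers, hy']
  have hmul := Z.card_mul_index
  rw [hcard] at hmul
  have hrC : r ∣ Nat.card C := ⟨_, hmul.symm⟩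
  have hni : ¬ r ∣ Z.index := by
    rintro ⟨m, hm⟩
    apply hr1
    refine (Dvd.intro m ?_ : r ^ 2 ∣ Nat.card C).trans (Subgroup.card_subgroup_dvd_card C)
    rw [← hmul, hm]
    ring
  obtain ⟨K, hK⟩ := Subgroup.exists_right_complement'_of_coprime (N := Z)
    (by rw [hcard]; exact (Nat.Prime.coprime_iff_not_dvd hr).2 hni)
  have hKn : K.Normal := by
    refine ⟨fun k hk g => ?_⟩
    obtain ⟨⟨z, w⟩, hzw⟩ := hK.2 g
    have hg : g = z * w := hzw.symm
    have h1 : (z : C) * (w * k * (w : C)⁻¹) * (z : C)⁻¹ = w * k * (w : C)⁻¹ := by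
      rw [← (hZ z z.2 _).eq, mul_inv_cancel_right]
    have h2 : g * k * g⁻¹ = (z : C) * (w * k * (w : C)⁻¹) * (z : C)⁻¹ := by
      rw [hg]
      group
    rw [h2, h1]
    exact K.mul_mem (K.mul_mem w.2 hk) (K.inv_mem w.2)
  have hKc : Nat.card K = Z.index := by
    have h1 := hK.card_mul_card
    rw [hcard, ← hmul] at h1
    exact Nat.eq_of_mul_eq_mul_left hr.pos h1
  have hKi : K.index = r := by
    have h1 := K.card_mul_index
    rw [hKc, ← hmul, mul_comm] at h1
    exact Nat.eq_of_mul_eq_mul_right (Nat.pos_of_ne_zero (fun h0 => by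
      rw [h0] at hni
      exact hni (dvd_zero _))) h1
  have hle : K ≤ pPrimeCore r C := Lib.Cores.le_pPrimeCore hKn (by
    rw [hKc]
    exact ((Nat.Prime.coprime_iff_not_dvd hr).2 hni).symm)
  have h1 : (pPrimeCore r C).index ∣ K.index := Subgroup.index_dvd_of_le hle
  rw [hKi] at h1
  rcases (Nat.dvd_prime hr).1 h1 with h | h
  · exfalso
    rw [Subgroup.index_eq_one, Lib.Cores.pPrimeCore_eq_top_iff] at h
    exact (Nat.Prime.coprime_iff_not_dvd hr).1 h.symm hrC
  · exact h

end general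

/-- the constituents of the `r`-section of `y` -/
theorem section_mem {S : Type u} [Group S] [Fintype S] {r : ℕ} [Fact r.Prime]
    (hr1 : ¬ r ^ 2 ∣ Nat.card S) (y : S) (hy : orderOf y = r) {d : ℕ}
    (hd1 : ∀ g : S, (∃ i : ℕ, g ^ r ^ i = 1) → g ^ d = g) (hd2 : ∀ g : S, ¬ r ∣ orderOf g → g ^ d = 1)
    (hd4 : ∀ g : S, ¬ r ∣ orderOf (g * (g ^ d)⁻¹)) [DecidablePred fun g : S => IsConj y (g ^ d)] :
    Nat.card S = r * Nat.card {g : S // IsConj y (g ^ d)} ∧
    ∀ φ : IrrCharacter S,
      classInner (fun g : S => if IsConj y (g ^ d) then (1 : ℂ) else 0) (φ : S → ℂ) ≠ 0 →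
      ∀ v : S, Commute y v → ¬ r ∣ orderOf v → (φ : S → ℂ) (y * v) ≠ 0 := by
  classical
  have hr : r.Prime := Fact.out
  have hr0 : (r : ℂ) ≠ 0 := by exact_mod_cast hr.ne_zero
  have : Finite (IrrCharacter S) := finite_irr
  have := Fintype.ofFinite (IrrCharacter S)
  obtain ⟨M, hM⟩ := Blocks.ExistsModular.exists_isPModular hr
  set C := Subgroup.centralizer ({y} : Set S) with hC
  have hyC : y ∈ C := Subgroup.mem_centralizer_singleton_iff.2 rfl
  have hidx := index_core hr1 y hy
  have hnc : ∃ k : ℕ, (pPrimeCore r C).index = r ^ k := ⟨1, by rw [pow_one]; exact hidx⟩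
  have hyp : ∃ k : ℕ, orderOf y = r ^ k := ⟨1, by rw [hy, pow_one]⟩
  have hyr : ∃ i : ℕ, y ^ r ^ i = 1 := ⟨1, by rw [pow_one, ← hy, pow_orderOf_eq_one]⟩
  -- the number of elements of the section
  have hfib : Nat.card {g : S // g ^ d = y} = Nat.card (pPrimeCore r C) := by
    have hc1 : ∀ g : S, g ^ d = y → g * y⁻¹ ∈ C := by
      intro g hg
      refine Subgroup.mem_centralizer_singleton_iff.2 ?_
      have : Commute (g * y⁻¹) y := by
        rw [← hg]
        exact (Commute.self_pow g d).mul_left ((Commute.refl (g ^ d)).inv_left)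
      exact this
    refine Nat.card_congr ⟨fun g => ⟨⟨g.1 * y⁻¹, hc1 _ g.2⟩, ?_⟩, fun u => ⟨u.1.1 * y, ?_⟩, ?_, ?_⟩
    · apply mem_pPrimeCore_of_regular hnc
      rw [Subgroup.orderOf_mk]
      have := hd4 g.1
      rwa [g.2] at this
    · have h1 : Commute (u.1.1 : S) y := Subgroup.mem_centralizer_singleton_iff.1 u.1.2
      have h2 : ¬ r ∣ orderOf (u.1.1 : S) := by
        intro h3
        have h4 : orderOf (u.1.1 : S) = orderOf (u : pPrimeCore r C) := by
          rw [Subgroup.orderOf_coe, Subgroup.orderOf_coe]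
        rw [h4] at h3
        exact (Nat.Prime.coprime_iff_not_dvd hr).1 (Lib.Cores.pPrimeCore_coprime r).symm
          (h3.trans (orderOf_dvd_natCard _))
      rw [h1.mul_pow, hd2 _ h2, one_mul, hd1 y hyr]
    · intro g
      apply Subtype.ext
      simp
    · intro u
      apply Subtype.ext
      apply Subtype.ext
      simp
  have hcount : Nat.card S = r * Nat.card {g : S // IsConj y (g ^ d)} := by
    have h1 := Cfsg.Agent.H611.RealSection.card_section y d
    have h2 : (Finset.univ.filter fun g : S => g ^ d = y).card = Nat.card (pPrimeCore r C) := by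
      rw [← hfib, Nat.card_eq_fintype_card, Fintype.card_subtype]
    have h3 : (Finset.univ.filter fun g : S => IsConj y (g ^ d)).card =
        Nat.card {g : S // IsConj y (g ^ d)} := by
      rw [Nat.card_eq_fintype_card, Fintype.card_subtype]
    have h4 : Nat.card S * Nat.card (pPrimeCore r C) =
        Nat.card C * Nat.card {g : S // IsConj y (g ^ d)} := by
      rw [← h2, ← h3]
      convert (by exact_mod_cast h1 : Nat.card S * _ = Nat.card C * _)
    rw [← (pPrimeCore r C).card_mul_index, hidx] at h4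
    have h5 : Nat.card (pPrimeCore r C) * Nat.card S =
        Nat.card (pPrimeCore r C) * (r * Nat.card {g : S // IsConj y (g ^ d)}) := by
      rw [mul_comm, h4]
      ring
    exact Nat.eq_of_mul_eq_mul_left Nat.card_pos h5
  refine ⟨hcount, ?_⟩
  set m := Nat.card {g : S // IsConj y (g ^ d)} with hm
  have hS0 : (Nat.card S : ℂ) ≠ 0 := card_ne_zero_complex
  have hm' : (Nat.card S : ℂ) = r * m := by exact_mod_cast hcount
  have hm0 : (m : ℂ) ≠ 0 := by
    intro h0
    rw [h0, mul_zero] at hm'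
    exact hS0 hm'
  set F : S → ℂ := fun g : S => if IsConj y (g ^ d) then (1 : ℂ) else 0 with hF
  have hFcf : IsClassFunction S F := by
    intro g t
    have h1 : (t * g * t⁻¹) ^ d = t * g ^ d * t⁻¹ := conj_pow
    have h2 : IsConj (g ^ d) (t * g ^ d * t⁻¹) := isConj_iff.2 ⟨t, rfl⟩
    show (if IsConj y ((t * g * t⁻¹) ^ d) then (1 : ℂ) else 0) = if IsConj y (g ^ d) then (1 : ℂ) else 0
    by_cases h : IsConj y (g ^ d)
    · rw [if_pos h, if_pos (by rw [h1]; exact h.trans h2)]
    · rw [if_neg h, if_neg (by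
        rw [h1]
        exact fun h' => h (h'.trans h2.symm))]
  have hsumF : ∑ g : S, F g = m := by
    rw [hF]
    simp only
    rw [Finset.sum_boole, hm, Nat.card_eq_fintype_card, Fintype.card_subtype]
  -- members of the principal `r`-block
  have hconst : ∀ φ ∈ principalBlock M S, ∀ v : S, Commute y v → ¬ r ∣ orderOf v →
      (φ : S → ℂ) (y * v) = (φ : S → ℂ) y := by
    intro φ hφ v hyv hv
    refine Cfsg.Agent.S0942.result r M hM y hyp v ?_ φ hφ
    have hvC : v ∈ C := Subgroup.mem_centralizer_singleton_iff.2 hyv.symm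
    exact ⟨⟨v, hvC⟩, mem_pPrimeCore_of_regular hnc (by rwa [Subgroup.orderOf_mk]), rfl⟩
  have hcoef : ∀ φ ∈ principalBlock M S, classInner F (φ : S → ℂ) = (r : ℂ)⁻¹ * conj ((φ : S → ℂ) y) := by
    intro φ hφ
    have h1 : ∀ g : S, F g * conj ((φ : S → ℂ) g) = F g * conj ((φ : S → ℂ) y) := by
      intro g
      by_cases h : IsConj y (g ^ d)
      · congr 2
        obtain ⟨t, ht⟩ := isConj_iff.1 h.symm
        have h2 : (t * g * t⁻¹) ^ d = y := by
          rw [conj_pow, ht]
        have h3 : (φ : S → ℂ) g = (φ : S → ℂ) (t * g * t⁻¹) :=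
          (isCharacter_isClassFunction (isIrr_isCharacter φ.2) g t).symm
        rw [h3]
        set g' := t * g * t⁻¹ with hg'
        have h4 : g' = y * (g' * (g' ^ d)⁻¹) := by
          rw [h2]
          have h5 : Commute g' y := by
            rw [← h2]
            exact Commute.self_pow g' d
          have h6 : Commute y (g' * y⁻¹) := (h5.symm).mul_right ((Commute.refl y).inv_right)
          rw [h6.eq, inv_mul_cancel_right]
        have h5 : Commute y (g' * (g' ^ d)⁻¹) := by
          rw [h2]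
          have h5 : Commute g' y := by
            rw [← h2]
            exact Commute.self_pow g' d
          exact (h5.symm).mul_right ((Commute.refl y).inv_right)
        rw [h4]
        exact hconst φ hφ _ h5 (hd4 g')
      · have h2 : F g = 0 := if_neg h
        rw [h2, zero_mul, zero_mul]
    rw [Core.classInner_def, Finset.sum_congr rfl fun g _ => h1 g, ← Finset.sum_mul, hsumF, hm']
    field_simp
  -- the norm
  have hnorm : classInner F F = (r : ℂ)⁻¹ := by
    have h1 : ∀ g : S, F g * conj (F g) = F g := by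
      intro g
      by_cases h : IsConj y (g ^ d)
      · have h2 : F g = 1 := if_pos h
        rw [h2, map_one, one_mul]
      · have h2 : F g = 0 := if_neg h
        rw [h2, zero_mul]
    rw [Core.classInner_def, Finset.sum_congr rfl fun g _ => h1 g, hsumF, hm']
    field_simp
  have hpos : (Nat.card C).factorization r = 1 := by
    have h1 := index_pPrimeCore_eq hnc
    rw [hidx] at h1
    exact (Nat.pow_right_injective hr.two_le (by simpa using h1)).symm
  have hblock : ∑ φ ∈ (principalBlock M S).toFinset, (φ : S → ℂ) y * conj ((φ : S → ℂ) y) = r := by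
    have h1 := sum_principalBlock_section hM y hyp hC 1 1 (by
      rw [orderOf_one]
      exact fun h => hr.one_lt.ne' (Nat.dvd_one.1 h)) (by
      rw [orderOf_one]
      exact fun h => hr.one_lt.ne' (Nat.dvd_one.1 h))
    rw [sum_principalBlock_of_pComplement hM hnc (by
      rw [orderOf_one]
      exact fun h => hr.one_lt.ne' (Nat.dvd_one.1 h)) (by
      rw [orderOf_one]
      exact fun h => hr.one_lt.ne' (Nat.dvd_one.1 h)), hpos, pow_one, finsum_mem_eq_toFinset_sum,
      Subgroup.coe_one, mul_one] at h1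
    exact h1
  -- the coefficients outside the principal block vanish
  have hzero : ∀ φ : IrrCharacter S, φ ∉ principalBlock M S → classInner F (φ : S → ℂ) = 0 := by
    have h1 : classInner F F = ∑ φ : IrrCharacter S, classInner F (φ : S → ℂ) * conj (classInner F (φ : S → ℂ)) :=
      classInner_eq_sum hFcf hFcf
    have h2 : ∑ φ ∈ (principalBlock M S).toFinset,
        classInner F (φ : S → ℂ) * conj (classInner F (φ : S → ℂ)) = (r : ℂ)⁻¹ := by
      have h3 : ∀ φ ∈ (principalBlock M S).toFinset,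
          classInner F (φ : S → ℂ) * conj (classInner F (φ : S → ℂ)) =
            (r : ℂ)⁻¹ * (r : ℂ)⁻¹ * ((φ : S → ℂ) y * conj ((φ : S → ℂ) y)) := by
        intro φ hφ
        rw [hcoef φ (Set.mem_toFinset.1 hφ), map_mul, map_inv₀, map_natCast, Complex.conj_conj]
        ring
      rw [Finset.sum_congr rfl h3, ← Finset.mul_sum, hblock]
      field_simp
    have h3 : ∑ φ ∈ (principalBlock M S).toFinsetᶜ, ‖classInner F (φ : S → ℂ)‖ ^ 2 = 0 := by
      have h4 := Finset.sum_add_sum_compl (principalBlock M S).toFinset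
        (fun φ : IrrCharacter S => classInner F (φ : S → ℂ) * conj (classInner F (φ : S → ℂ)))
      rw [h2, ← h1, hnorm] at h4
      have h5 : ∑ φ ∈ (principalBlock M S).toFinsetᶜ,
          classInner F (φ : S → ℂ) * conj (classInner F (φ : S → ℂ)) = 0 := by
        linear_combination h4
      have h6 : ((∑ φ ∈ (principalBlock M S).toFinsetᶜ, ‖classInner F (φ : S → ℂ)‖ ^ 2 : ℝ) : ℂ) = 0 := by
        rw [← h5]
        push_cast
        refine Finset.sum_congr rfl fun φ _ => ?_
        rw [Complex.mul_conj']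
      exact_mod_cast h6
    intro φ hφ
    have h4 := (Finset.sum_eq_zero_iff_of_nonneg (fun _ _ => by positivity)).1 h3 φ (by
      rw [Finset.mem_compl, Set.mem_toFinset]
      exact hφ)
    exact norm_eq_zero.1 (pow_eq_zero_iff two_ne_zero |>.1 h4)
  intro φ hφ v hyv hv h0
  have hφB : φ ∈ principalBlock M S := by
    by_contra h
    exact hφ (hzero φ h)
  rw [hconst φ hφB v hyv hv] at h0
  apply hφ
  rw [hcoef φ hφB, h0, map_zero, mul_zero]

theorem oneBlock_congr {C C' : Type u} [Group C] [Group C'] (e : C ≃* C') {M : Ideal AlgInt}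
    (h : OneBlock M C) : OneBlock M C' := fun χ => (pull_mem e χ).1 (h (pull e χ))

theorem oneBlock_centralizer {S T : Type u} [Group S] [Group T] (f : S ≃* T) {M : Ideal AlgInt} (x : S)
    (h : OneBlock M (Subgroup.centralizer ({x} : Set S))) :
    OneBlock M (Subgroup.centralizer ({f x} : Set T)) := by
  have h1 : (Subgroup.centralizer ({x} : Set S)).map f.toMonoidHom = Subgroup.centralizer ({f x} : Set T) := by
    ext t
    constructor
    · rintro ⟨s, hs, rfl⟩
      rw [Subgroup.mem_centralizer_singleton_iff]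
      have h2 : s * x = x * s := Subgroup.mem_centralizer_singleton_iff.1 hs
      show f s * f x = f x * f s
      rw [← map_mul, h2, map_mul]
    · intro ht
      refine ⟨f.symm t, Subgroup.mem_centralizer_singleton_iff.2 ?_, f.apply_symm_apply t⟩
      apply f.injective
      rw [map_mul, map_mul, f.apply_symm_apply]
      exact Subgroup.mem_centralizer_singleton_iff.1 ht
  exact oneBlock_congr ((f.subgroupMap (Subgroup.centralizer ({x} : Set S))).trans
    (MulEquiv.subgroupCongr h1)) h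

/-- **[T04]** (P1B) -/
theorem evenB_of_p1 {S : Type u} [Group S] [Fintype S] [IsSimpleGroup S] {r : ℕ} (hr : r.Prime) (hr2 : r ≠ 2)
    (hr1 : ¬ r ^ 2 ∣ Nat.card S) (y : S) (hy : orderOf y = r) (hreal : IsConj y y⁻¹) (x : S)
    (hx : ∃ j : ℕ, orderOf x = 2 ^ j) (hxy : Commute x y)
    (hC : ∀ M : Ideal AlgInt, IsPModular 2 M → OneBlock M (Subgroup.centralizer ({x} : Set S))) :
    EvenB S := by
  classical
  intro G _ _ N hN _ f hCN hidx k hk M hM
  obtain ⟨f⟩ := f
  have : Fact r.Prime := ⟨hr⟩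
  have : Fact (Nat.Prime 2) := ⟨Nat.prime_two⟩
  have hrodd : Odd r := hr.odd_of_ne_two hr2
  -- transport to `N`
  have hcard : Nat.card S = Nat.card N := Nat.card_congr f.toEquiv
  have hr1' : ¬ r ^ 2 ∣ Nat.card N := by rwa [← hcard]
  have hy' : orderOf (f y) = r := by rw [MulEquiv.orderOf_eq, hy]
  have hreal' : IsConj (f y) (f y)⁻¹ := by
    obtain ⟨t, ht⟩ := isConj_iff.1 hreal
    exact isConj_iff.2 ⟨f t, by rw [← map_inv, ← map_mul, ← map_mul, ht, map_inv]⟩
  have hx' : ∃ j : ℕ, orderOf (f x) = 2 ^ j := by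
    obtain ⟨j, hj⟩ := hx
    exact ⟨j, by rw [MulEquiv.orderOf_eq, hj]⟩
  have hxy' : Commute (f x) (f y) := by
    have h1 : f x * f y = f y * f x := by rw [← map_mul, hxy.eq, map_mul]
    exact h1
  obtain ⟨d, b, hd1, hd2, hd3, hd4⟩ := exists_rexp N hr
  obtain ⟨e, he⟩ := exists_OE (G := G)
  obtain ⟨hcount, hmem⟩ := section_mem (S := N) hr1' (f y) hy' hd1 hd2 hd4
  have heN := he.sub N
  have hde : ∀ n : N, (n ^ e) ^ d = n ^ d := by
    intro n
    have h1 : (n ^ e) ^ d = (n ^ d) ^ e := by rw [← pow_mul, mul_comm, pow_mul]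
    rw [h1]
    apply heN.fix
    exact Odd.of_dvd_nat hrodd.pow (orderOf_dvd_of_pow_eq_one (hd3 n))
  set X : Set G := {g | ∃ n : N, (n : G) = g ∧ Odd (orderOf n) ∧ IsConj (f y) (n ^ d)} with hXdef
  have hXmem : ∀ n : N, (n : G) ∈ X ↔ Odd (orderOf n) ∧ IsConj (f y) (n ^ d) := by
    intro n
    constructor
    · rintro ⟨n', hn', h1, h2⟩
      have h3 : n' = n := Subtype.ext hn'
      rw [← h3]
      exact ⟨h1, h2⟩
    · rintro ⟨h1, h2⟩
      exact ⟨n, rfl, h1, h2⟩
  have hX : ∀ n : N, (n : G) ^ e ∈ X ↔ IsConj (f y) (n ^ d) := by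
    intro n
    rw [← Subgroup.coe_pow, hXmem, hde]
    exact ⟨fun h => h.2, fun h => ⟨heN.odd n, h⟩⟩
  have hord : ∀ (g : G) (n : N), orderOf ((MulAut.conjNormal g : MulAut N) n) = orderOf n :=
    fun g n => MulEquiv.orderOf_eq _ _
  have hconjX : ∀ (g : G) (n : N), g * (n : G) * g⁻¹ = (((MulAut.conjNormal g : MulAut N) n : N) : G) :=
    fun g n => (MulAut.conjNormal_apply g n).symm
  obtain ⟨a, s, hs2, hs⟩ := Nat.exists_eq_pow_mul_and_not_dvd
    (n := Nat.card {n : N // IsConj (f y) (n ^ d)}) (by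
      intro h0
      rw [h0, mul_zero] at hcount
      exact Nat.card_pos.ne' hcount) 2 (by norm_num)
  refine concl_of_section hM N hidx hk he X ?_ ?_ ?_ ?_ ?_ (a := a) (s := s) (c := s * r) ?_ ?_ hs2 ?_
  · rintro g ⟨n, rfl, h1, -⟩
    rwa [Subgroup.orderOf_coe]
  · intro h1
    have h2 := (hXmem 1).1 (by rwa [Subgroup.coe_one])
    rw [one_pow] at h2
    have h3 : f y = 1 := isConj_one_left.1 h2.2
    rw [h3, orderOf_one] at hy'
    exact hr.one_lt.ne hy'
  · rintro g ⟨n, rfl, h1, h2⟩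
    rw [← Subgroup.coe_inv, hXmem]
    refine ⟨by rwa [orderOf_inv], ?_⟩
    rw [inv_pow]
    exact hreal'.trans (Cfsg.Agent.H612.Even.isConj_inv_inv h2)
  · rintro m hm g ⟨n, rfl, h1, h2⟩
    have h3 : m * (n : G) * m⁻¹ = (((⟨m, hm⟩ : N) * n * (⟨m, hm⟩ : N)⁻¹ : N) : G) := rfl
    rw [h3, hXmem]
    refine ⟨?_, ?_⟩
    · have h7 : orderOf ((⟨m, hm⟩ : N) * n * (⟨m, hm⟩ : N)⁻¹) = orderOf n := by
        have := orderOf_injective (MulAut.conj (⟨m, hm⟩ : N)).toMonoidHom (MulAut.conj (⟨m, hm⟩ : N)).injective n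
        simpa using this
      rwa [h7]
    · rw [conj_pow]
      exact Cfsg.Agent.H612.Even.isConj_mul_inv h2
  · rintro g ⟨_, ⟨n, rfl, h1, h2⟩, h3⟩ _ ⟨n', rfl, h4, h5⟩
    rw [hconjX, hXmem, ← map_pow] at h3
    rw [hconjX, hXmem, hord, ← map_pow]
    refine ⟨h4, ?_⟩
    exact h3.2.trans ((Cfsg.Agent.H612.Even.isConj_map (MulAut.conjNormal g : MulAut N) h2.symm).trans
      (Cfsg.Agent.H612.Even.isConj_map (MulAut.conjNormal g : MulAut N) h5))
  · rw [← hs]
    exact Nat.card_congr (Equiv.subtypeEquivRight hX)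
  · rw [hcount, hs]
    ring
  · intro φ hφ
    have h1 : (fun n : N => sec e X (n : G)) = fun n : N => if IsConj (f y) (n ^ d) then (1 : ℂ) else 0 := by
      funext n
      by_cases h : IsConj (f y) (n ^ d)
      · rw [sec_of_mem ((hX n).2 h), if_pos h]
      · rw [sec_of_notMem (fun h' => h ((hX n).1 h')), if_neg h]
    rw [h1] at hφ
    by_contra hcon
    obtain ⟨j, hj⟩ := hx'
    have h2 := hmem φ hφ (f x) hxy'.symm (by
      rw [hj]
      intro h3
      exact hr2 ((Nat.prime_dvd_prime_iff_eq hr Nat.prime_two).1 (hr.dvd_of_dvd_pow h3)))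
    apply h2
    rw [← hxy'.eq]
    exact vanish hM φ hcon (f x) ⟨j, hj⟩ (oneBlock_centralizer f x (hC M hM)) (f y) (by
      rw [hy', ← even_iff_two_dvd, Nat.not_even_iff_odd]
      exact hrodd) hxy'

end Cfsg.Agent.H410.EB
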