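import Cfsg.Agent.H610.EB.Crit
import Cfsg.Agent.H684.EB.Base
import Cfsg.Agent.H612.Even

/-!
# TEAM EB: sections of elements of odd order

`concl_of_section`: Theorem R (H612/SectionR) for the principal 2-block: if all constituents of the section of `X`
on `N` are in the principal 2-block of `N`, the conclusion of S4522 holds.
-/

set_option autoImplicit false
set_option linter.unusedSectionVars false

namespace Cfsg.Agent.H410.EB

open Cfsg Cfsg.Agent.Characters Cfsg.Agent.H694
open scoped ComplexConjugate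
open Cfsg.Agent.Characters.Core
open Cfsg.Agent.OddOrderCharacters.NormalInduced (conjFn)
open Cfsg.Agent.OddOrderCharacters.PF9.CliffGen (resTo irr_ind)
open Cfsg.Agent.Blocks.Local Cfsg.Agent.Blocks.Basic
open Cfsg.Agent.Blocks.Covering (conjIrr conjIrr_conjIrr conjIrr_one conjIrr_apply conjIrr_at_one)
open Cfsg.Agent.H610.EB Cfsg.Agent.H612.SectionR Cfsg.Agent.H684.EB

universe u

/-- a 2-subgroup covering a group above `S` modulo `S` -/
theorem exists_two_group {G : Type u} [Group G] [Finite G] (S : Subgroup G) [hS : S.Normal]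
    (hidx : ∃ j : ℕ, S.index = 2 ^ j) (D : Subgroup G) :
    ∃ P : Subgroup G, IsPGroup 2 P ∧ P ≤ D ∧ ∀ d ∈ D, ∃ x ∈ P, ∃ s ∈ S, d = x * s := by
  have : Fact (Nat.Prime 2) := ⟨Nat.prime_two⟩
  obtain ⟨P⟩ : Nonempty (Sylow 2 D) := inferInstance
  have hN : (S.subgroupOf D).Normal := inferInstance
  have htop : (P : Subgroup D) ⊔ S.subgroupOf D = ⊤ := by
    rw [← Subgroup.index_eq_one]
    obtain ⟨j, hj⟩ := hidx
    have h1 : ((P : Subgroup D) ⊔ S.subgroupOf D).index ∣ 2 ^ j := by
      rw [← hj]
      refine (Subgroup.index_dvd_of_le le_sup_right).trans ?_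
      exact Subgroup.relIndex_dvd_index_of_normal S D
    have h2 : ((P : Subgroup D) ⊔ S.subgroupOf D).index ∣ (P : Subgroup D).index :=
      Subgroup.index_dvd_of_le le_sup_left
    have h3 : ¬ 2 ∣ (P : Subgroup D).index := P.not_dvd_index
    have h4 : Nat.Coprime (2 ^ j) (P : Subgroup D).index :=
      Nat.Coprime.pow_left _ ((Nat.Prime.coprime_iff_not_dvd Nat.prime_two).2 h3)
    exact Nat.eq_one_of_dvd_coprimes h4 h1 h2
  refine ⟨(P : Subgroup D).map D.subtype, P.isPGroup'.map _, Subgroup.map_subtype_le _, ?_⟩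
  intro d hd
  have h1 : (⟨d, hd⟩ : D) ∈ (P : Subgroup D) ⊔ S.subgroupOf D := by
    rw [htop]
    exact Subgroup.mem_top _
  obtain ⟨x, hx, s, hs, hxs⟩ := Subgroup.mem_sup_of_normal_right.1 h1
  exact ⟨x, ⟨x, hx, rfl⟩, s, hs, (congrArg Subtype.val hxs).symm⟩

section

variable {G : Type u} [Group G] {e k : ℕ}

theorem sec_coe (N : Subgroup G) (X : Set G) :
    (fun n : N => sec e X (n : G)) = sec e {n : N | (n : G) ∈ X} := by
  funext n
  have h : n ^ e ∈ {n : N | (n : G) ∈ X} ↔ (n : G) ^ e ∈ X := by
    rw [Set.mem_ofPred_eq, Subgroup.coe_pow]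
  by_cases hn : (n : G) ^ e ∈ X
  · rw [sec_of_mem hn, sec_of_mem (h.2 hn)]
  · rw [sec_of_notMem hn, sec_of_notMem (fun h' => hn (h.1 h'))]

theorem sec_conj {X : Set G} {g : G} (h : ∀ x, g * x * g⁻¹ ∈ X ↔ x ∈ X) (y : G) :
    sec e X (g * y * g⁻¹) = sec e X y := by
  have h1 : (g * y * g⁻¹) ^ e = g * y ^ e * g⁻¹ := conj_pow
  by_cases hy : y ^ e ∈ X
  · rw [sec_of_mem hy, sec_of_mem]
    rw [h1]
    exact (h _).2 hy
  · rw [sec_of_notMem hy, sec_of_notMem]
    rw [h1]
    exact fun h' => hy ((h _).1 h')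

variable [Fintype G]

theorem loc_coe {M : Ideal AlgInt} (hM : IsPModular 2 M) (he : OE G e) (N : Subgroup G) [Fintype N] {X : Set G}
    (hX : ∀ n ∈ N, ∀ x ∈ X, n * x * n⁻¹ ∈ X) (hXo : ∀ x ∈ X, Odd (orderOf x)) (φ : IrrCharacter N) :
    MemLocalRing M (classInner (fun n : N => sec e X (n : G)) (φ : N → ℂ)) := by
  rw [sec_coe]
  refine loc_sec (he.sub N) hM (fun g x hx => hX g g.2 _ hx) (fun x hx => ?_) φ
  rw [← Subgroup.orderOf_coe]
  exact hXo _ hx

theorem real_coe (N : Subgroup G) [Fintype N] {X : Set G} (hXi : ∀ x ∈ X, x⁻¹ ∈ X) (φ : IrrCharacter N) :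
    conj (classInner (fun n : N => sec e X (n : G)) (φ : N → ℂ)) =
      classInner (fun n : N => sec e X (n : G)) (φ : N → ℂ) :=
  Cfsg.Agent.H612.Base.conj_classInner (fun g => by
    rw [Subgroup.coe_inv]
    exact sec_inv hXi _) (fun g => conj_sec X _) φ

end

/-- **Theorem R** for the principal 2-block. -/
theorem concl_of_section {G : Type u} [Group G] [Fintype G] {M : Ideal AlgInt} {k e : ℕ}
    (hM : IsPModular 2 M) (N : Subgroup G) [hN : N.Normal] [Fintype N]
    (hidx : ∃ j : ℕ, N.index = 2 ^ j) (hk : IsK G k) (he : OE G e) (X : Set G)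
    (hXo : ∀ x ∈ X, Odd (orderOf x)) (hX1 : (1 : G) ∉ X) (hXi : ∀ x ∈ X, x⁻¹ ∈ X)
    (hXn : ∀ n ∈ N, ∀ x ∈ X, n * x * n⁻¹ ∈ X)
    (hXd : ∀ g : G, (∃ x ∈ X, g * x * g⁻¹ ∈ X) → ∀ x ∈ X, g * x * g⁻¹ ∈ X)
    {a s c : ℕ} (hs : Nat.card {n : N // (n : G) ^ e ∈ X} = 2 ^ a * s) (hc : Nat.card N = 2 ^ a * c)
    (hs2 : ¬ 2 ∣ s)
    (hB : ∀ φ : IrrCharacter N, classInner (fun n : N => sec e X (n : G)) (φ : N → ℂ) ≠ 0 →
      φ ∈ principalBlock M N) : Concl M G N k := by
  classical
  have hprime : M.IsPrime := isPrime_of_isPModular hM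
  have := charP_resField hM
  have : Fact (Nat.Prime 2) := ⟨Nat.prime_two⟩
  have := @Fintype.ofFinite (IrrCharacter N) finite_irr
  have hKM := km_of_isK hk
  -- the coefficients
  set α : IrrCharacter N → ℂ := fun φ => classInner (fun n : N => sec e X (n : G)) (φ : N → ℂ) with hα
  have hαR : ∀ φ, MemLocalRing M (α φ) := fun φ => loc_coe hM he N hXn hXo φ
  have hαr : ∀ φ, conj (α φ) = α φ := fun φ => real_coe N hXi φ
  have hcfN : IsClassFunction N (fun n : N => sec e X (n : G)) := by
    rw [sec_coe]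
    exact isClassFunction_sec fun g x hx => hXn g g.2 _ hx
  have hnorm : ∑ φ, α φ ^ 2 = classInner (fun n : N => sec e X (n : G)) (fun n : N => sec e X (n : G)) := by
    rw [classInner_eq_sum hcfN hcfN]
    refine Finset.sum_congr rfl fun φ _ => ?_
    rw [pow_two]
    congr 1
    exact (hαr φ).symm
  have hunit : ¬ MemLocalIdeal M (classInner (fun n : N => sec e X (n : G)) (fun n : N => sec e X (n : G))) := by
    have hcardY : Nat.card {n : N // n ^ e ∈ {n : N | (n : G) ∈ X}} = 2 ^ a * s := by
      rw [← hs]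
      exact Nat.card_congr (Equiv.subtypeEquivRight fun n => by rw [Set.mem_ofPred_eq, Subgroup.coe_pow])
    rw [sec_coe, norm_sec, hcardY, hc]
    intro h3
    have hc0 : (c : ℂ) ≠ 0 := by
      rw [Nat.cast_ne_zero]
      rintro rfl
      rw [mul_zero] at hc
      exact Nat.card_pos.ne' hc
    have h4 := memLocalIdeal_mul_left (memLocalRing_natCast (M := M) c) h3
    have h5 : (c : ℂ) * (((2 ^ a * s : ℕ) : ℂ) / ((2 ^ a * c : ℕ) : ℂ)) = (s : ℂ) := by
      push_cast
      have h2a : ((2 : ℂ) ^ a) ≠ 0 := pow_ne_zero _ two_ne_zero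
      field_simp
    rw [h5, memLocalIdeal_natCast_iff hM] at h4
    exact hs2 h4
  by_cases hst : ∀ g : G, ∀ x ∈ X, g * x * g⁻¹ ∈ X
  · -- `X` is normal in `G`
    refine of_local_norm hM N hidx hk (Ψ := sec e X) (isClassFunction_sec hst)
      (fun χ => loc_sec he hM hst hXo χ) (fx_sec hKM he hXi) ?_
    have h1 : ∑ φ : IrrCharacter N, @ite _ (φ ∈ principalBlock M N) (Classical.dec _)
        (classInner (fun s : N => sec e X (s : G)) (φ : N → ℂ) ^ 2) 0 = ∑ φ, α φ ^ 2 := by
      refine Finset.sum_congr rfl fun φ _ => ?_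
      by_cases h : φ ∈ principalBlock M N
      · rw [if_pos h]
      · rw [if_neg h]
        have h0 : α φ = 0 := by
          by_contra h'
          exact h (hB φ h')
        rw [h0, zero_pow two_ne_zero]
    have h2 : ∑ φ : IrrCharacter N, @ite _ (φ ∈ principalBlock M N) (Classical.dec _)
        (classInner (fun s : N => sec e X (s : G)) (φ : N → ℂ) * (φ : N → ℂ) 1) 0 = 0 := by
      have h3 := congrFun (classFunction_eq_sum hcfN) 1
      rw [Finset.sum_apply] at h3
      have h4 : sec e X ((1 : N) : G) = 0 := sec_of_notMem (by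
        rw [Subgroup.coe_one, one_pow]
        exact hX1)
      rw [h4] at h3
      refine Eq.trans (Finset.sum_congr rfl fun φ _ => ?_) h3.symm
      rw [Pi.smul_apply, smul_eq_mul]
      by_cases h : φ ∈ principalBlock M N
      · rw [if_pos h]
      · rw [if_neg h]
        have h0 : α φ = 0 := by
          by_contra h'
          exact h (hB φ h')
        have h0' : classInner (fun n : N => sec e X (n : G)) (φ : N → ℂ) = 0 := h0
        rw [h0', zero_mul]
    rw [h1, h2, hnorm, zero_pow two_ne_zero, sub_zero]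
    exact hunit
  · -- the stabilizer of `X`
    let A : Subgroup G :=
      { carrier := {g | ∀ x, g * x * g⁻¹ ∈ X ↔ x ∈ X}
        one_mem' := by
          intro x
          simp
        mul_mem' := by
          intro a b ha hb x
          have h4 : a * b * x * (a * b)⁻¹ = a * (b * x * b⁻¹) * a⁻¹ := by group
          rw [h4, ha, hb]
        inv_mem' := by
          intro g hg x
          have h4 := hg (g⁻¹ * x * g⁻¹⁻¹)
          have h5 : g * (g⁻¹ * x * g⁻¹⁻¹) * g⁻¹ = x := by group
          rw [h5] at h4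
          exact h4.symm }
    have hA : ∀ g, g ∈ A ↔ ∀ x, g * x * g⁻¹ ∈ X ↔ x ∈ X := fun g => Iff.rfl
    have hNA : N ≤ A := by
      intro n hn x
      refine ⟨fun h => ?_, hXn n hn x⟩
      have := hXn n⁻¹ (N.inv_mem hn) _ h
      have h5 : n⁻¹ * (n * x * n⁻¹) * n⁻¹⁻¹ = x := by group
      rwa [h5] at this
    -- an element of `G` mapping one element of `X` into `X` is in `A`
    have hXA : ∀ g x, x ∈ X → g * x * g⁻¹ ∈ X → g ∈ A := by
      intro g x hx hgx y
      refine ⟨fun h => ?_, fun h => hXd g ⟨x, hx, hgx⟩ y h⟩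
      have h1 := hXd g⁻¹ ⟨_, hgx, by
        have h5 : g⁻¹ * (g * x * g⁻¹) * g⁻¹⁻¹ = x := by group
        rwa [h5]⟩ _ h
      have h5 : g⁻¹ * (g * y * g⁻¹) * g⁻¹⁻¹ = y := by group
      rwa [h5] at h1
    have hAtop : A ≠ ⊤ := by
      intro h3
      apply hst
      intro g x hx
      have : g ∈ A := by rw [h3]; exact Subgroup.mem_top g
      exact (this x).2 hx
    -- the union of the conjugates
    set Z : Set G := {x | ∃ g : G, g * x * g⁻¹ ∈ X} with hZ
    have hXZ : X ⊆ Z := fun x hx => ⟨1, by simpa using hx⟩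
    have hZn : ∀ g : G, ∀ x ∈ Z, g * x * g⁻¹ ∈ Z := by
      rintro g x ⟨t, ht⟩
      refine ⟨t * g⁻¹, ?_⟩
      have h3 : t * g⁻¹ * (g * x * g⁻¹) * (t * g⁻¹)⁻¹ = t * x * t⁻¹ := by group
      rwa [h3]
    have hZn' : ∀ g x, g * x * g⁻¹ ∈ Z ↔ x ∈ Z := by
      intro g x
      refine ⟨fun h => ?_, hZn g x⟩
      have := hZn g⁻¹ _ h
      have h5 : g⁻¹ * (g * x * g⁻¹) * g⁻¹⁻¹ = x := by group
      rwa [h5] at this
    have hZo : ∀ x ∈ Z, Odd (orderOf x) := by
      rintro x ⟨t, ht⟩
      have h3 := hXo _ ht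
      have h4 : orderOf (t * x * t⁻¹) = orderOf x := by
        have := orderOf_injective (MulAut.conj t).toMonoidHom (MulAut.conj t).injective x
        simpa using this
      rwa [h4] at h3
    have hZi : ∀ x ∈ Z, x⁻¹ ∈ Z := by
      rintro x ⟨t, ht⟩
      refine ⟨t, ?_⟩
      have h3 := hXi _ ht
      have h4 : (t * x * t⁻¹)⁻¹ = t * x⁻¹ * t⁻¹ := by group
      rwa [h4] at h3
    set β : IrrCharacter N → ℂ := fun φ => classInner (fun n : N => sec e Z (n : G)) (φ : N → ℂ) with hβ
    have hβR : ∀ φ, MemLocalRing M (β φ) := fun φ => loc_coe hM he N (fun n _ x hx => hZn n x hx) hZo φ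
    have hβr : ∀ φ, conj (β φ) = β φ := fun φ => real_coe N hZi φ
    have hcfZ : IsClassFunction N (fun n : N => sec e Z (n : G)) := by
      rw [sec_coe]
      exact isClassFunction_sec fun g x hx => hZn g _ hx
    have hmain : ∑ φ, α φ * β φ =
        classInner (fun n : N => sec e X (n : G)) (fun n : N => sec e X (n : G)) := by
      have h1 : classInner (fun n : N => sec e X (n : G)) (fun n : N => sec e X (n : G)) =
          classInner (fun n : N => sec e X (n : G)) (fun n : N => sec e Z (n : G)) := by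
        rw [Core.classInner_def, Core.classInner_def]
        congr 1
        refine Finset.sum_congr rfl fun n _ => ?_
        by_cases hn : (n : G) ^ e ∈ X
        · rw [sec_of_mem hn, sec_of_mem (hXZ hn)]
        · rw [sec_of_notMem hn, zero_mul, zero_mul]
      rw [h1, classInner_eq_sum hcfN hcfZ]
      refine Finset.sum_congr rfl fun φ _ => ?_
      congr 1
      exact (hβr φ).symm
    have hne : ∑ φ, redC M (α φ * β φ) ≠ 0 := by
      rw [← redC_sum fun φ _ => memLocalRing_mul (hαR φ) (hβR φ), Ne,
        redC_eq_zero_iff (memLocalRing_sum fun φ _ => memLocalRing_mul (hαR φ) (hβR φ)), hmain]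
      exact hunit
    -- a fixed character
    obtain ⟨P, hP2, hPA, hPN⟩ := exists_two_group N hidx A
    let _ := irrAct N P
    have hαA : ∀ d ∈ A, ∀ φ, α (conjIrr N d φ) = α φ := fun d hd φ =>
      classInner_conj_of_inv N d (fun s => by
        rw [MulAut.conjNormal_apply]
        exact sec_conj hd _) φ
    have hβA : ∀ d, ∀ φ, β (conjIrr N d φ) = β φ := fun d φ =>
      classInner_conj_of_inv N d (fun s => by
        rw [MulAut.conjNormal_apply]
        exact sec_conj (hZn' d) _) φ
    obtain ⟨φ, hφ1, hφ2, hφ3⟩ := exists_fixed_ne (X := IrrCharacter N) (P := P) hP2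
      (H610.Twist.pw (hk.sub N).coprime) (pw_pw (hk.sub N))
      (fun g φ => (conjIrr_pw N hk _ φ).symm) (fun φ => redC M (α φ * β φ))
      (by
        intro g φ
        show redC M (α (conjIrr N ((g⁻¹ : P) : G) φ) * β (conjIrr N ((g⁻¹ : P) : G) φ)) = _
        rw [hαA _ (hPA (g⁻¹).2), hβA])
      (by
        intro φ
        show redC M (α (H610.Twist.pw (hk.sub N).coprime φ) * β (H610.Twist.pw (hk.sub N).coprime φ)) =
          redC M (α φ * β φ)
        have h1 : α (H610.Twist.pw (hk.sub N).coprime φ) = α φ :=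
          classInner_pw (hk.sub N) (fun s => by
            rw [Subgroup.coe_pow]
            exact fx_sec hKM he hXi _) φ
        have h2 : β (H610.Twist.pw (hk.sub N).coprime φ) = β φ :=
          classInner_pw (hk.sub N) (fun s => by
            rw [Subgroup.coe_pow]
            exact fx_sec hKM he hZi _) φ
        rw [h1, h2]) hne
    have hφP : ∀ x ∈ P, conjIrr N x φ = φ := by
      intro x hx
      have h1 : conjIrr N ((((⟨x, hx⟩ : P)⁻¹)⁻¹ : P) : G) φ = φ := hφ1 (⟨x, hx⟩ : P)⁻¹
      rwa [inv_inv] at h1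
    have hφA : ∀ d ∈ A, conjIrr N d φ = φ := by
      intro d hd
      obtain ⟨x, hx, n, hn, rfl⟩ := hPN d hd
      rw [← conjIrr_conjIrr N n x, hφP x hx, conjIrr_mem_self N hn]
    have hα0 : redC M (α φ) ≠ 0 := by
      intro h
      apply hφ3
      show redC M (α φ * β φ) = 0
      rw [redC_mul (hαR φ) (hβR φ), h, zero_mul]
    have hβ0 : redC M (β φ) ≠ 0 := by
      intro h
      apply hφ3
      show redC M (α φ * β φ) = 0
      rw [redC_mul (hαR φ) (hβR φ), h, mul_zero]
    have hα0' : ¬ MemLocalIdeal M (α φ) := fun h => hα0 ((redC_eq_zero_iff (hαR φ)).2 h)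
    -- the inertia group is `A`
    let T : Subgroup G :=
      { carrier := {g | conjIrr N g φ = φ}
        one_mem' := conjIrr_one N φ
        mul_mem' := by
          intro a b ha hb
          show conjIrr N (a * b) φ = φ
          rw [← conjIrr_conjIrr N b a, show conjIrr N a φ = φ from ha, show conjIrr N b φ = φ from hb]
        inv_mem' := by
          intro g hg
          show conjIrr N g⁻¹ φ = φ
          have h1 : conjIrr N g φ = φ := hg
          conv_lhs => rw [← h1]
          rw [conjIrr_conjIrr, mul_inv_cancel, conjIrr_one] }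
    have hAT : A ≤ T := fun d hd => hφA d hd
    have hTA : A = T := by
      let f : G → N → ℂ := fun g n => sec e X (g⁻¹ * (n : G) * g)
      have hfA : ∀ g, ∀ a ∈ A, f (g * a) = f g := by
        intro g a ha
        funext n
        show sec e X ((g * a)⁻¹ * (n : G) * (g * a)) = sec e X (g⁻¹ * (n : G) * g)
        have h1 : (g * a)⁻¹ * (n : G) * (g * a) = a⁻¹ * (g⁻¹ * (n : G) * g) * a⁻¹⁻¹ := by group
        rw [h1]
        exact sec_conj ((hA _).1 (A.inv_mem ha)) _
      have hfq : ∀ g : G, f (Quotient.out (g : G ⧸ A)) = f g := by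
        intro g
        have h1 : g⁻¹ * Quotient.out (g : G ⧸ A) ∈ A := by
          rw [← QuotientGroup.eq]
          exact (QuotientGroup.out_eq' _).symm
        have h2 := hfA g _ h1
        rwa [mul_inv_cancel_left] at h2
      have := Fintype.ofFinite (G ⧸ A)
      have hsum : (fun n : N => sec e Z (n : G)) = ∑ q : G ⧸ A, f (Quotient.out q) := by
        funext n
        rw [Finset.sum_apply]
        have hfm : ∀ g, f g n = 1 ↔ g⁻¹ * (n : G) ^ e * g ∈ X := by
          intro g
          have h1 : (g⁻¹ * (n : G) * g) ^ e = g⁻¹ * (n : G) ^ e * g := by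
            have := conj_pow (i := e) (a := g⁻¹) (b := (n : G))
            simpa using this
          show sec e X (g⁻¹ * (n : G) * g) = 1 ↔ _
          rw [← h1]
          constructor
          · intro h
            by_contra h'
            rw [sec_of_notMem h'] at h
            exact zero_ne_one h
          · exact fun h => sec_of_mem h
        have hf01 : ∀ g, f g n ≠ 1 → f g n = 0 := by
          intro g hg
          show sec e X (g⁻¹ * (n : G) * g) = 0
          refine sec_of_notMem fun h => hg ?_
          exact sec_of_mem h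
        by_cases hn : (n : G) ^ e ∈ Z
        · obtain ⟨g, hg⟩ := hn
          rw [sec_of_mem (⟨g, hg⟩ : (n : G) ^ e ∈ Z), Finset.sum_eq_single ((g⁻¹ : G) : G ⧸ A)]
          · rw [hfq, eq_comm, hfm, inv_inv]
            exact hg
          · intro q _ hq
            apply hf01
            intro h
            apply hq
            rw [hfm] at h
            have h1 : (Quotient.out q)⁻¹ * g⁻¹ ∈ A := by
              refine hXA _ _ hg ?_
              have h5 : (Quotient.out q)⁻¹ * g⁻¹ * (g * (n : G) ^ e * g⁻¹) * ((Quotient.out q)⁻¹ * g⁻¹)⁻¹ =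
                (Quotient.out q)⁻¹ * (n : G) ^ e * Quotient.out q := by group
              rwa [h5]
            rw [← QuotientGroup.eq] at h1
            rw [← h1]
            exact (QuotientGroup.out_eq' q).symm
          · intro h
            exact absurd (Finset.mem_univ _) h
        · rw [sec_of_notMem hn, Finset.sum_eq_zero]
          intro q _
          apply hf01
          intro h
          rw [hfm] at h
          apply hn
          exact ⟨(Quotient.out q)⁻¹, by rwa [inv_inv]⟩
      -- the coefficients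
      let cc : G ⧸ A → ℂ := fun q => classInner (f (Quotient.out q)) (φ : N → ℂ)
      have hccR : ∀ q, MemLocalRing M (cc q) := by
        intro q
        have h1 : f (Quotient.out q) = fun n : N => sec e {x | (Quotient.out q)⁻¹ * x * Quotient.out q ∈ X} (n : G) := by
          funext n
          have h2 : ((Quotient.out q)⁻¹ * (n : G) * Quotient.out q) ^ e =
              (Quotient.out q)⁻¹ * (n : G) ^ e * Quotient.out q := by
            have := conj_pow (i := e) (a := (Quotient.out q)⁻¹) (b := (n : G))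
            simpa using this
          show sec e X ((Quotient.out q)⁻¹ * (n : G) * Quotient.out q) = _
          by_cases h : (Quotient.out q)⁻¹ * (n : G) ^ e * Quotient.out q ∈ X
          · rw [sec_of_mem (by rw [h2]; exact h), sec_of_mem]
            exact h
          · rw [sec_of_notMem (by rw [h2]; exact h), sec_of_notMem]
            exact h
        show MemLocalRing M (classInner (f (Quotient.out q)) (φ : N → ℂ))
        rw [h1]
        refine loc_coe hM he N (fun n hn x hx => ?_) (fun x hx => ?_) φ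
        · have h3 := hXn ((Quotient.out q)⁻¹ * n * (Quotient.out q)⁻¹⁻¹) (hN.conj_mem n hn _) _ hx
          show (Quotient.out q)⁻¹ * (n * x * n⁻¹) * Quotient.out q ∈ X
          have h5 : (Quotient.out q)⁻¹ * n * (Quotient.out q)⁻¹⁻¹ * ((Quotient.out q)⁻¹ * x * Quotient.out q) *
            ((Quotient.out q)⁻¹ * n * (Quotient.out q)⁻¹⁻¹)⁻¹ = (Quotient.out q)⁻¹ * (n * x * n⁻¹) * Quotient.out q := by
            group
          rwa [h5] at h3
        · exact hZo x ⟨(Quotient.out q)⁻¹, by rw [inv_inv]; exact hx⟩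
      have hβsum : β φ = ∑ q, cc q := by
        show classInner (fun n : N => sec e Z (n : G)) (φ : N → ℂ) = _
        rw [hsum, classInner_sum_left]
      -- the action of the inertia group
      have hccT : ∀ t ∈ T, ∀ q : G ⧸ A, cc (t • q) = cc q := by
        intro t ht q
        have ht' : conjIrr N t⁻¹ φ = φ := T.inv_mem ht
        have h1 : f (Quotient.out (t • q)) = f (t * Quotient.out q) := by
          have h2 : t • q = ((t * Quotient.out q : G) : G ⧸ A) := by
            conv_lhs => rw [← QuotientGroup.out_eq' q]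
            rfl
          rw [h2, hfq]
        have h3 : f (t * Quotient.out q) = f (Quotient.out q) ∘ (MulAut.conjNormal t⁻¹ : MulAut N) := by
          funext n
          show sec e X ((t * Quotient.out q)⁻¹ * (n : G) * (t * Quotient.out q)) =
            sec e X ((Quotient.out q)⁻¹ * ((MulAut.conjNormal t⁻¹ : MulAut N) n : G) * Quotient.out q)
          rw [MulAut.conjNormal_apply]
          congr 1
          group
        show classInner (f (Quotient.out (t • q))) (φ : N → ℂ) = classInner (f (Quotient.out q)) (φ : N → ℂ)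
        rw [h1, h3]
        have h4 : (φ : N → ℂ) = (φ : N → ℂ) ∘ (MulAut.conjNormal t⁻¹ : MulAut N) :=
          (congrArg Subtype.val ht').symm
        conv_lhs => rw [h4]
        exact Clifford.classInner_comp_mulEquiv _ _ _
      obtain ⟨PT, hPT2, hPT, hPTN⟩ := exists_two_group N hidx T
      obtain ⟨q, hq, -, -⟩ := exists_fixed_ne (X := G ⧸ A) (P := PT) hPT2 id (fun _ => rfl) (fun _ _ => rfl)
        (fun q => redC M (cc q)) (fun t q => by
          show redC M (cc ((t : G) • q)) = redC M (cc q)
          rw [hccT t (hPT t.2)]) (fun _ => rfl) (by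
          rw [← redC_sum fun q _ => hccR q, ← hβsum]
          exact hβ0)
      obtain ⟨g, rfl⟩ := QuotientGroup.mk_surjective q
      have hTq : ∀ t ∈ T, g⁻¹ * t * g ∈ A := by
        intro t ht
        obtain ⟨x, hx, n, hn, rfl⟩ := hPTN t ht
        have h1 : (x : G) • ((g : G) : G ⧸ A) = ((g : G) : G ⧸ A) := hq ⟨x, hx⟩
        have h2 : g⁻¹ * (x * g) ∈ A := by
          rw [← QuotientGroup.eq]
          exact h1.symm
        have h3 : g⁻¹ * n * g⁻¹⁻¹ ∈ A := hNA (hN.conj_mem n hn _)
        have h4 := A.mul_mem h2 h3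
        have h5 : g⁻¹ * (x * g) * (g⁻¹ * n * g⁻¹⁻¹) = g⁻¹ * (x * n) * g := by group
        rwa [h5] at h4
      refine Subgroup.eq_of_le_of_card_ge hAT ?_
      refine Nat.card_le_card_of_injective (fun t : T => (⟨g⁻¹ * t * g, hTq t t.2⟩ : A)) ?_
      intro t t' h
      have h1 := congrArg Subtype.val h
      exact Subtype.ext (mul_left_cancel (mul_right_cancel h1))
    have hI : ∀ g, g ∈ A ↔ conjFn N (φ : N → ℂ) g = φ := by
      intro g
      rw [hTA]
      constructor
      · intro hg
        exact congrArg Subtype.val (show conjIrr N g φ = φ from hg)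
      · intro hg
        exact Subtype.ext hg
    have hφk := (H610.Twist.fixed_iff (hk.sub N).coprime φ).1 hφ2
    have hφ1' : (φ : N → ℂ) ≠ fun _ => 1 := by
      intro h1
      apply hAtop
      rw [eq_top_iff]
      intro g _
      rw [hI, h1]
      rfl
    -- the character of `A`
    have : Fintype A := Fintype.ofFinite _
    have : Fintype (N.subgroupOf A) := Fintype.ofFinite _
    obtain ⟨χ, hχk, -, hχodd⟩ := exists_odd_local hM (hk.sub A) (N.subgroupOf A) (irr_dn N A hNA φ.2)
      (by
        intro s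
        show (φ : N → ℂ) (Subgroup.subgroupOfEquivOfLe hNA (s ^ k)) = (φ : N → ℂ) (Subgroup.subgroupOfEquivOfLe hNA s)
        rw [map_pow, hφk]) (Ψ := fun t : A => sec e X (t : G))
      (by
        rw [sec_coe]
        exact isClassFunction_sec fun g x hx => ((hA _).1 g.2 _).2 hx)
      (fun χ => loc_coe hM he A (fun n hn x hx => ((hA _).1 hn x).2 hx) hXo χ)
      (fun g => by
        rw [Subgroup.coe_pow]
        exact fx_sec hKM he hXi _)
      (by
        have h1 := classInner_dn N A hNA (fun n : N => sec e X (n : G)) (φ : N → ℂ)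
        have h2 : (fun s : N.subgroupOf A => sec e X ((s : A) : G)) = dn N A hNA (fun n : N => sec e X (n : G)) := rfl
        rw [h2, h1]
        exact hα0')
    rw [mu_dn N A hNA] at hχodd
    exact of_inertia hM N hidx hk φ (hB φ (fun h => hα0' (by rw [hα]; simp only; rw [h]; exact memLocalIdeal_zero)))
      hφk hφ1' A hI hNA (π := (χ : A → ℂ)) (GC.of_irr χ.2) hχk hχodd (Or.inr hAtop)

end Cfsg.Agent.H410.EB
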